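import Cfsg.Agent.SmallSimple.TheoremBCor
import Cfsg.Agent.SmallSimple.BrauerTypesBasic
import Cfsg.Agent.SolvableStructure.Supersolvable
import Cfsg.Agent.Blocks.CyclicClasses
import Cfsg.Agent.Blocks.Central
import Cfsg.Agent.H674.Codegree
import Cfsg.Agent.H607.BP.Arith

/-!
Perfect groups with `O_{p'} = 1`, Sylow `p`-subgroups of order `p` and `NoForm p n`:
the Sylow `p`-subgroups are self-centralizing.
-/

set_option autoImplicit false
open Cfsg
open scoped ComplexConjugate

namespace Cfsg.Agent.H607.BP.NonSelf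

open Subgroup
open Cfsg.Agent.Characters.Core
open Cfsg.Agent.SmallSimple
open Cfsg.Agent.SmallSimple.BrauerTypesBasic
open Cfsg.Agent.H607.BP.Arith

universe u

variable {G : Type u} [Group G] [Finite G] {p : ℕ} [hp : Fact p.Prime]

/-- A perfect group with cyclic Sylow `p`-subgroup: `N(P) ≠ C(P)`. -/
theorem not_le (hperf : commutator G = ⊤) (P : Sylow p G) (hP : Nat.card P = p) :
    ¬ normalizer (P : Set G) ≤ centralizer (P : Set G) := by
  intro h1
  have : IsCyclic (P : Subgroup G) := isCyclic_of_prime_card hP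
  have h2 := MonoidHom.ker_transferSylow_isComplement' P h1
  have h3 : commutator G ≤ (MonoidHom.transferSylow P h1).ker := by
    have hcommP : ∀ a b : P, a * b = b * a := by
      have : IsMulCommutative (P : Subgroup G) := inferInstance
      intro a b
      exact mul_comm' a b
    rw [_root_.commutator_def, commutator_le]
    intro a _ b _
    rw [MonoidHom.mem_ker, commutatorElement_def]
    simp only [map_mul, map_inv]
    rw [hcommP (MonoidHom.transferSylow P h1 a) (MonoidHom.transferSylow P h1 b)]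
    group
  rw [hperf, top_le_iff] at h3
  rw [h3] at h2
  have h4 : (P : Subgroup G) = ⊥ := by
    have := h2.disjoint
    rwa [top_disjoint] at this
  have h5 : Nat.card (P : Subgroup G) = 1 := by rw [h4, Subgroup.card_bot]
  have h6 : Nat.card (P : Subgroup G) = p := hP
  have := hp.out.one_lt
  omega

/-- In a perfect group a subgroup of prime order which is normal is central. -/
theorem not_normal (hperf : commutator G = ⊤) (P : Sylow p G) (hP : Nat.card P = p) :
    normalizer (P : Set G) ≠ ⊤ := by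
  intro h
  have : IsCyclic (P : Subgroup G) := isCyclic_of_prime_card hP
  have hn : (P : Subgroup G).Normal := normalizer_eq_top_iff.1 h
  have h1 := Cfsg.Agent.SolvableStructure.Supersolvable.commutator_le_centralizer_of_isCyclic
    (P : Subgroup G)
  rw [hperf] at h1
  exact not_le hperf P hP (le_trans le_top h1)

theorem index_cent (P : Sylow p G) {e n : ℕ}
    (he : (centralizer (P : Set G)).relIndex (normalizer (P : Set G)) = e)
    (hn : Nat.card (Sylow p G) = 1 + n * p) :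
    (centralizer (P : Set G)).index = e * (1 + n * p) := by
  have hle : centralizer (P : Set G) ≤ normalizer (P : Set G) := centralizer_le_normalizer _
  rw [← relIndex_mul_index hle, he, ← P.card_eq_index_normalizer, hn]

/-- If `c / d` is an algebraic integer, then `d ∣ c`. -/
theorem dvd_of_isIntegral {c d : ℕ} {ε : ℤ} (hε : ε = 1 ∨ ε = -1) (hd : d ≠ 0)
    (h : IsIntegral ℤ ((c : ℂ) * ε / d)) : d ∣ c := by
  have h1 : ((c : ℂ) * ε / d) = (((c : ℚ) * ε / d : ℚ) : ℂ) := by push_cast; rfl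
  rw [h1] at h
  have h2 : IsIntegral ℤ ((c : ℚ) * ε / d : ℚ) :=
    (isIntegral_algebraMap_iff (R := ℤ) (A := ℚ) (B := ℂ) (algebraMap ℚ ℂ).injective).1 h
  obtain ⟨z, hz⟩ := IsIntegrallyClosed.isIntegral_iff.1 h2
  have hd' : (d : ℚ) ≠ 0 := by exact_mod_cast hd
  rw [eq_div_iff hd'] at hz
  have h3 : z * d = c * ε := by
    have : ((z : ℚ) * d) = c * ε := hz
    exact_mod_cast this
  have h4 : (d : ℤ) ∣ c := by
    rcases hε with h5 | h5 <;> rw [h5] at h3
    · exact ⟨z, by linarith⟩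
    · exact ⟨-z, by linarith⟩
  exact_mod_cast h4

theorem eq_of_normal {K : Subgroup G} (hK : K.Normal) (hK1 : K ≠ ⊥)
    (hcore : ∀ N : Subgroup G, N.Normal → (Nat.card N).Coprime p → N = ⊥)
    (P : Sylow p G) (hP : Nat.card P = p) : (P : Subgroup G) ≤ K := by
  have h1 : p ∣ Nat.card K := by
    by_contra h
    exact hK1 (hcore K hK ((Nat.Prime.coprime_iff_not_dvd hp.out).2 h).symm)
  obtain ⟨x, hx⟩ := exists_prime_orderOf_dvd_card' (G := K) p h1
  have hx' : orderOf (x : G) = p := by rw [Subgroup.orderOf_coe, hx]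
  have hpg : IsPGroup p (zpowers (x : G)) := by
    apply IsPGroup.of_card (n := 1)
    rw [Nat.card_zpowers, hx', pow_one]
  obtain ⟨Q, hQ⟩ := hpg.exists_le_sylow
  have hQP : Nat.card Q = p := (Nat.card_congr (Sylow.equiv Q P).toEquiv).trans hP
  have hQ' : zpowers (x : G) = (Q : Subgroup G) := by
    apply Subgroup.eq_of_le_of_card_ge hQ
    rw [Nat.card_zpowers, hx']
    exact hQP.le
  have hQK : (Q : Subgroup G) ≤ K := by
    rw [← hQ', zpowers_le]
    exact x.2
  obtain ⟨g, hg⟩ := MulAction.exists_smul_eq G Q P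
  intro y hy
  rw [← hg] at hy
  rw [Sylow.coe_subgroup_smul, Subgroup.mem_smul_pointwise_iff_exists] at hy
  obtain ⟨z, hz, rfl⟩ := hy
  exact hK.conj_mem z (hQK hz) g

theorem exists_ne_one (P : Sylow p G) (hP : Nat.card P = p) : ∃ x ∈ (P : Subgroup G), x ≠ 1 := by
  have : Nontrivial P := by
    rw [← Finite.one_lt_card_iff_nontrivial, show Nat.card P = p from hP]
    exact hp.out.one_lt
  obtain ⟨x, hx⟩ := exists_ne (1 : P)
  exact ⟨x, x.2, fun h => hx (Subtype.ext h)⟩

theorem exists_regular (P : Sylow p G) (hP : Nat.card P = p)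
    (hne : centralizer (P : Set G) ≠ (P : Subgroup G)) :
    ∃ y ∈ centralizer (P : Set G), y ≠ 1 ∧ ¬ p ∣ orderOf y := by
  obtain ⟨x, hx, hx1⟩ := exists_ne_one P hP
  obtain ⟨K, -, hK2, -, hK4⟩ := Cfsg.Agent.Blocks.CyclicOrtho.exists_complement P hP hx hx1
  have hc := Cfsg.Agent.Blocks.CyclicOrtho.centralizer_eq P hP hx hx1
  by_cases hK : K = ⊥
  · exfalso
    rw [hK, index_bot] at hK2
    rw [hc] at hK2
    apply hne
    symm
    have : IsCyclic (P : Subgroup G) := isCyclic_of_prime_card hP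
    have : IsMulCommutative (P : Subgroup G) := inferInstance
    apply Subgroup.eq_of_le_of_card_ge (Subgroup.le_centralizer (P : Subgroup G))
    rw [hK2]
    exact hP.ge
  · obtain ⟨k, hk1⟩ := Subgroup.ne_bot_iff_exists_ne_one.1 hK
    obtain ⟨k, hk⟩ := k
    replace hk1 : k ≠ 1 := fun h => hk1 (Subtype.ext h)
    refine ⟨((k : centralizer ({x} : Set G)) : G), ?_, ?_, ?_⟩
    · show _ ∈ centralizer ((P : Subgroup G) : Set G)
      rw [← hc]; exact (k : centralizer ({x} : Set G)).2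
    · exact fun h => hk1 (Subtype.ext h)
    · rw [Subgroup.orderOf_coe]
      exact (hK4 _).1 hk

theorem noFix (hcore : ∀ N : Subgroup G, N.Normal → (Nat.card N).Coprime p → N = ⊥)
    {M : Ideal AlgInt} (hM : IsPModular p M) (P : Sylow p G) (hP : Nat.card P = p)
    {y : G} (hy : y ∈ centralizer (P : Set G)) (hy1 : y ≠ 1) (hyp : ¬ p ∣ orderOf y)
    {χ : IrrCharacter G} (hχ : χ ∈ principalBlock M G) [Fintype P] :
    ∑ x : P, (χ : G → ℂ) x ≠ 0 := by
  intro h0
  have h1 := Cfsg.Agent.SmallSimple.TheoremBCor.apply_eq_of_sum_eq_zero hM P hP hχ h0 hy hyp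
  obtain ⟨K, hK, hKm⟩ := Cfsg.Agent.H674.Codegree.exists_kernel (isIrr_isCharacter χ.2)
  have hyK : y ∈ K := (hKm y).2 h1
  have hK1 : K ≠ ⊥ := by
    rintro rfl
    exact hy1 (Subgroup.mem_bot.1 hyK)
  have hPK := eq_of_normal hK hK1 hcore P hP
  have h2 : ∑ x : P, (χ : G → ℂ) x = ∑ _x : P, (χ : G → ℂ) 1 :=
    Finset.sum_congr rfl fun x _ => (hKm x).1 (hPK x.2)
  rw [h2, Finset.sum_const, Finset.card_univ, nsmul_eq_mul, mul_eq_zero, deg_spec] at h0
  rcases h0 with h0 | h0
  · have : (Fintype.card P : ℂ) ≠ 0 := by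
      exact_mod_cast Fintype.card_ne_zero
    exact this h0
  · have := deg_pos χ
    have h3 : deg χ = 0 := by exact_mod_cast h0
    omega

omit hp in
/-- Degrees `≡ -1 (mod p)`. -/
theorem deg_neg' {n e t d : ℕ} (hp2 : 2 ≤ p) (hn : NoForm p n)
    (het : e * t = p - 1)
    (hd : (d + 1) % p = 0) (hdvd : d ∣ e * (1 + n * p)) :
    d = p - 1 ∨ d = e * (1 + n * p) := by
  obtain ⟨s, hs⟩ := hdvd
  have hprod : d * (s * t) = (p - 1) * (1 + n * p) := by
    rw [← mul_assoc, ← hs, ← het]; ring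
  have hmod : (s * t) % p = 1 := by
    apply mod_of_mul hp2 hd
    rw [hprod]
    exact prod_mod hp2
  rcases master (D := s * t) (s := d) hp2 hn hmod (by rw [mul_comm, hprod]) with h | h
  · right
    have hs1 : s = 1 := Nat.eq_one_of_mul_eq_one_right h
    rw [hs1, mul_one] at hs
    exact hs.symm
  · left
    rw [h] at hprod
    have h1 : 0 < 1 + n * p := by positivity
    exact Nat.eq_of_mul_eq_mul_right h1 hprod

/-- Main lemma: the Sylow `p`-subgroups are self-centralizing. -/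
theorem cent_eq (hperf : commutator G = ⊤)
    (hcore : ∀ N : Subgroup G, N.Normal → (Nat.card N).Coprime p → N = ⊥)
    (P : Sylow p G) (hP : Nat.card P = p) {n : ℕ} (hn : Nat.card (Sylow p G) = 1 + n * p)
    (hF : NoForm p n) : centralizer (P : Set G) = (P : Subgroup G) := by
  classical
  by_contra hne
  have hp2 := hp.out.two_le
  have hperf' : ∀ f : G →* ℂˣ, f = 1 := by
    intro f
    have h1 := Abelianization.commutator_subset_ker f
    rw [hperf] at h1
    ext g
    have := h1 (mem_top g)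
    rw [MonoidHom.mem_ker] at this
    rw [this]
    rfl
  obtain ⟨y, hy, hy1, hyp⟩ := exists_regular P hP hne
  obtain ⟨M, hM⟩ := Blocks.ExistsModular.exists_isPModular hp.out
  obtain ⟨e, he⟩ : ∃ e, (centralizer (P : Set G)).relIndex (normalizer (P : Set G)) = e :=
    ⟨_, rfl⟩
  obtain ⟨t, ht⟩ : ∃ t, e * t = p - 1 := by
    have h := Cfsg.Agent.Blocks.CyclicClasses.card_cls P hP
    have he' : (centralizer ((P : Subgroup G) : Set G)).relIndex
      (normalizer ((P : Subgroup G) : Set G)) = e := he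
    rw [he'] at h
    exact ⟨_, by rw [mul_comm]; exact h⟩
  have he2 : 2 ≤ e := by
    by_contra h
    have he0 : e ≠ 0 := by
      intro h0
      rw [h0, zero_mul] at ht
      omega
    have he1 : e = 1 := by omega
    have h1 : normalizer (P : Set G) ≤ centralizer (P : Set G) := by
      rw [← Subgroup.relIndex_eq_one, he, he1]
    exact not_le hperf P hP h1
  have htpos : 0 < t := by
    rcases Nat.eq_zero_or_pos t with h | h
    · rw [h, mul_zero] at ht; omega
    · exact h
  have hep : e ≤ p - 1 := by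
    rw [← ht]; exact Nat.le_mul_of_pos_right _ htpos
  have hpne : p ≠ 2 := by
    rintro rfl
    omega
  have hn1 : 1 ≤ n := by
    by_contra h
    have hn0 : n = 0 := by omega
    rw [hn0, zero_mul, add_zero, P.card_eq_index_normalizer, Subgroup.index_eq_one] at hn
    exact not_normal hperf P hP hn
  have hidx := index_cent P he hn
  obtain ⟨NE, X, ε, d, S, hB, h1, h2, h3, h4, h5, ⟨χ₁, h6, h6', h6''⟩, h7, h8, h9, h10⟩ :=
    Cfsg.Agent.SmallSimple.TheoremB.theoremB p hpne M hM P hP e t he ht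
  have htriv : χ₁ = triv G := Subtype.ext h6'
  rw [htriv] at h6 h6''
  have hone : ¬ p ∣ orderOf (1 : G) := by
    rw [orderOf_one]; exact fun h => hp.out.one_lt.ne' (Nat.dvd_one.1 h)
  have := Fintype.ofFinite P
  obtain ⟨x₀, hx₀, hx₀1⟩ := exists_ne_one P hP
  have hcx : centralizer ({x₀} : Set G) = centralizer (P : Set G) :=
    Cfsg.Agent.Blocks.CyclicOrtho.centralizer_eq P hP hx₀ hx₀1
  -- values
  have hNEv : ∀ χ ∈ NE, ∀ x ∈ P, x ≠ 1 → (χ : G → ℂ) x = ε χ := by
    intro χ hχ x hx hx1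
    have := h7 χ hχ x hx hx1 1 (one_mem _) hone
    rwa [mul_one] at this
  have hXv : ∀ Θ ∈ X, ∀ x : P, x ≠ 1 → (Θ : G → ℂ) x = d * ∑ l ∈ S Θ, ((l x : ℂˣ) : ℂ) := by
    intro Θ hΘ x hx
    have := (h8 Θ hΘ).2.2 x hx 1 (one_mem _) hone
    rwa [mul_one] at this
  -- integrality
  have hNEdvd : ∀ χ ∈ NE, deg χ ∣ e * (1 + n * p) := by
    intro χ hχ
    have hi := Cfsg.Agent.Blocks.Central.isIntegral_centralChar χ.2 x₀
    unfold centralChar at hi
    rw [hcx, hidx, hNEv χ hχ x₀ hx₀ hx₀1, deg_spec] at hi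
    refine dvd_of_isIntegral (h4 χ hχ) (deg_pos χ).ne' ?_
    exact hi
  -- equal degrees
  have hrel1 : ∀ Θ ∈ X, ∑ χ ∈ NE, ε χ * (deg χ : ℤ) = d * deg Θ := by
    intro Θ hΘ
    have := h10 Θ hΘ 1 hone
    simp only [deg_spec] at this
    exact_mod_cast this
  have hXdvd : ∀ Θ ∈ X, deg Θ ∣ e * (1 + n * p) := by
    intro Θ₀ hΘ₀
    have := PrimeDual.finite_dual (Q := P) hp.out hP
    have := Fintype.ofFinite (P →* ℂˣ)
    have hdeg : ∀ Θ ∈ X, deg Θ = deg Θ₀ := by
      intro Θ hΘ
      have e1 := (hrel1 Θ hΘ).symm.trans (hrel1 Θ₀ hΘ₀)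
      rcases h5 with h5 | h5 <;> rw [h5] at e1 <;> omega
    -- the union of the sets `S Θ`
    have hU : X.biUnion S = Finset.univ.erase 1 := by
      apply Finset.eq_of_subset_of_card_le
      · intro l hl
        rw [Finset.mem_biUnion] at hl
        obtain ⟨Θ, hΘ, hl⟩ := hl
        rw [Finset.mem_erase]
        refine ⟨?_, Finset.mem_univ _⟩
        rintro rfl
        exact (h8 Θ hΘ).2.1 hl
      · rw [Finset.card_erase_of_mem (Finset.mem_univ _), Finset.card_univ,
          ← Nat.card_eq_fintype_card, PrimeDual.card_dual (Q := P) hp.out hP,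
          Finset.card_biUnion (fun Θ hΘ Θ' hΘ' hne => h9 Θ hΘ Θ' hΘ' hne),
          Finset.sum_congr rfl (fun Θ hΘ => (h8 Θ hΘ).1), Finset.sum_const, h3, smul_eq_mul,
          mul_comm, ht]
    have hsum : ∑ Θ ∈ X, (Θ : G → ℂ) x₀ = -d := by
      have e1 : ∑ Θ ∈ X, (Θ : G → ℂ) x₀ =
          ∑ Θ ∈ X, d * ∑ l ∈ S Θ, ((l ⟨x₀, hx₀⟩ : ℂˣ) : ℂ) := by
        refine Finset.sum_congr rfl fun Θ hΘ => ?_
        exact hXv Θ hΘ ⟨x₀, hx₀⟩ (fun h => hx₀1 (congrArg Subtype.val h))
      rw [e1, ← Finset.mul_sum, ← Finset.sum_biUnion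
        (fun Θ hΘ Θ' hΘ' hne => h9 Θ hΘ Θ' hΘ' hne), hU]
      have e2 := PrimeDual.sum_dual_eq_zero (Q := P) hp.out hP (x := ⟨x₀, hx₀⟩)
        (fun h => hx₀1 (congrArg Subtype.val h))
      rw [← Finset.add_sum_erase _ _ (Finset.mem_univ (1 : P →* ℂˣ))] at e2
      have e3 : ((((1 : P →* ℂˣ) ⟨x₀, hx₀⟩ : ℂˣ)) : ℂ) = 1 := by simp
      rw [e3] at e2
      linear_combination (d : ℂ) * e2
    have hi : IsIntegral ℤ (∑ Θ ∈ X, centralChar (Θ : G → ℂ) x₀) :=
      IsIntegral.sum _ fun Θ _ => Cfsg.Agent.Blocks.Central.isIntegral_centralChar Θ.2 x₀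
    have e4 : ∑ Θ ∈ X, centralChar (Θ : G → ℂ) x₀ =
        ((e * (1 + n * p) : ℕ) : ℂ) * (-d : ℤ) / deg Θ₀ := by
      have e5 : ∀ Θ ∈ X, centralChar (Θ : G → ℂ) x₀ =
          ((e * (1 + n * p) : ℕ) : ℂ) / deg Θ₀ * (Θ : G → ℂ) x₀ := by
        intro Θ hΘ
        unfold centralChar
        rw [hcx, hidx, deg_spec, hdeg Θ hΘ]
        ring
      rw [Finset.sum_congr rfl e5, ← Finset.mul_sum, hsum]
      push_cast
      ring
    rw [e4] at hi
    exact dvd_of_isIntegral (by rcases h5 with h | h <;> rw [h] <;> simp) (deg_pos Θ₀).ne' hi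
  -- the nonprincipal nonexceptional characters
  have hbig : ∀ χ ∈ NE, χ ≠ triv G → 1 + n * p ∣ deg χ := by
    intro χ hχ hχ1
    obtain ⟨m, hm⟩ := Cfsg.Agent.SmallSimple.TheoremBCor.degree_nonexc (P := (P : Subgroup G)) hP
      (isIrr_isCharacter χ.2) (hNEv χ hχ)
    rw [deg_spec] at hm
    have hm' : (deg χ : ℤ) = ε χ + p * ((m : ℤ) - ε χ) := by exact_mod_cast hm
    rcases h4 χ hχ with hε | hε
    · have hmod : deg χ % p = 1 := by
        have e1 : (deg χ : ℤ) % p = 1 := by
          rw [hm', hε, Int.add_mul_emod_self_left]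
          exact Int.emod_eq_of_lt (by norm_num) (by exact_mod_cast hp.out.one_lt)
        exact_mod_cast e1
      rcases Arith.deg_pos hp2 hF ht hmod (hNEdvd χ hχ) with h | h
      · exact absurd (eq_triv_of_deg hperf' χ h) hχ1
      · rw [h]
    · have hmod : (deg χ + 1) % p = 0 := by
        have e1 : ((deg χ + 1 : ℕ) : ℤ) = p * (m + 1) := by
          push_cast
          rw [hm', hε]; ring
        have e2 : deg χ + 1 = p * (m + 1) := by exact_mod_cast e1
        rw [e2]; exact Nat.mul_mod_right _ _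
      rcases deg_neg' hp2 hF ht hmod (hNEdvd χ hχ) with h | h
      · exfalso
        refine noFix hcore hM P hP hy hy1 hyp ((hB χ).2 (Or.inl hχ)) ?_
        have e1 := Cfsg.Agent.SmallSimple.TheoremBCor.sum_const_off
          (f := fun x : P => (χ : G → ℂ) x) (c := (ε χ : ℂ))
          (fun x hx => hNEv χ hχ x x.2 (fun h' => hx (Subtype.ext h')))
        have e2 : ((χ : G → ℂ) ((1 : P) : G)) = deg χ := by
          rw [OneMemClass.coe_one, deg_spec]
        have e3 : (Nat.card (P : Subgroup G) : ℂ) = p := by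
          rw [show Nat.card (P : Subgroup G) = p from hP]
        have e4 : (χ : G → ℂ) ((1 : P) : G) + ((Nat.card (P : Subgroup G) : ℂ) - 1) * (ε χ : ℂ) =
            0 := by
          rw [e2, e3, hε, h, Nat.cast_sub (by omega)]
          push_cast
          ring
        exact e1.trans e4
      · rw [h]
        exact dvd_mul_left _ _
  -- conclusion
  obtain ⟨Θ, hΘ⟩ : X.Nonempty := by rw [← Finset.card_pos, h3]; exact htpos
  have hq : ((1 + n * p : ℕ) : ℤ) ∣ d * deg Θ - 1 := by
    rw [← hrel1 Θ hΘ, ← Finset.add_sum_erase _ _ h6, h6'', deg_triv]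
    have : (1 : ℤ) * ((1 : ℕ) : ℤ) + ∑ χ ∈ NE.erase (triv G), ε χ * (deg χ : ℤ) - 1 =
        ∑ χ ∈ NE.erase (triv G), ε χ * (deg χ : ℤ) := by push_cast; ring
    rw [this]
    refine Finset.dvd_sum fun χ hχ => ?_
    rw [Finset.mem_erase] at hχ
    exact Dvd.dvd.mul_left (Int.natCast_dvd_natCast.2 (hbig χ hχ.2 hχ.1)) _
  have hcop : Nat.Coprime (deg Θ) (1 + n * p) := by
    rw [← Nat.isCoprime_iff_coprime]
    obtain ⟨c, hc⟩ := hq
    exact ⟨d, -c, by linear_combination hc⟩
  have hle : deg Θ ∣ e := hcop.dvd_of_dvd_mul_right (hXdvd Θ hΘ)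
  have hle' := Nat.le_of_dvd (by omega) hle
  have hlt : p < 1 + n * p := by
    have : p ≤ n * p := Nat.le_mul_of_pos_left _ hn1
    omega
  have hz : d * deg Θ - 1 = 0 := by
    apply Int.eq_zero_of_abs_lt_dvd hq
    have h11 : |d * (deg Θ : ℤ) - 1| ≤ deg Θ + 1 := by
      rcases h5 with h | h <;> rw [h, abs_le] <;> constructor <;> linarith [deg_pos Θ]
    have h12 : (deg Θ : ℤ) + 1 ≤ p := by
      have : deg Θ + 1 ≤ p := by omega
      exact_mod_cast this
    have h13 : (p : ℤ) < ((1 + n * p : ℕ) : ℤ) := by exact_mod_cast hlt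
    linarith
  have hdeg1 : deg Θ = 1 := by
    rcases h5 with h | h <;> rw [h] at hz <;> omega
  have := eq_triv_of_deg hperf' Θ hdeg1
  rw [this] at hΘ
  exact Finset.disjoint_left.1 h1 h6 hΘ

end Cfsg.Agent.H607.BP.NonSelf
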